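import Mathlib
import Cfsg.Agent.Lib.Helper75.LW.Defs

/-!
# S0746 (team project LW): package [BRH]
-/

set_option autoImplicit false

namespace Cfsg.Agent.Lib.Helper79.LW

open Cfsg.Agent.Lib.Helper75.LW

open scoped Pointwise

universe u

/-- [BRH] -/
theorem pkgBrH : PkgBrH.{u} := by
  intro α _ _ G j
  constructor
  · intro h s s' hs hs'
    obtain ⟨g, hg⟩ := MulAction.exists_smul_eq G (Set.powersetCard.ofCard hs)
      (Set.powersetCard.ofCard hs')
    have h1 : g • s = s' := by
      have h2 := congrArg Subtype.val hg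
      have h3 := Set.powersetCard.coe_smul (g := g) (s := Set.powersetCard.ofCard hs)
      exact h3.symm.trans h2
    refine ⟨g.1, g.2, fun a => ?_⟩
    rw [← h1]
    exact (Finset.smul_mem_smul_finset_iff g).symm
  · intro h
    constructor
    intro x y
    obtain ⟨g, hg, hga⟩ := h x.1 y.1 (Set.powersetCard.mem_iff.1 x.2)
      (Set.powersetCard.mem_iff.1 y.2)
    refine ⟨⟨g, hg⟩, ?_⟩
    apply Subtype.ext
    have h3 := Set.powersetCard.coe_smul (g := (⟨g, hg⟩ : G)) (s := x)
    refine h3.trans ?_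
    ext b
    rw [← Finset.inv_smul_mem_iff, hga]
    have h1 : g ((⟨g, hg⟩ : G)⁻¹ • b) = b := by
      show g (g⁻¹ b) = b
      simp
    rw [h1]

end Cfsg.Agent.Lib.Helper79.LW
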