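import Mathlib
import Cfsg.Agent.Lib.Helper75.LW.Defs

/-!
# S0746 (team project LW): package [BRT]
-/

set_option autoImplicit false

namespace Cfsg.Agent.Lib.Helper79.LW

open Cfsg.Agent.Lib.Helper75.LW

universe u

/-- [BRT] -/
theorem pkgBrT : PkgBrT.{u} := by
  intro α _ _ G j
  rw [MulAction.isMultiplyPretransitive_iff]
  constructor
  · intro h x y
    obtain ⟨g, hg⟩ := h x y
    refine ⟨g.1, g.2, fun i => ?_⟩
    have h1 := congrArg (fun e : Fin j ↪ α => e i) hg
    exact h1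
  · intro h x y
    obtain ⟨g, hg, hgi⟩ := h x y
    refine ⟨⟨g, hg⟩, ?_⟩
    ext i
    exact hgi i

end Cfsg.Agent.Lib.Helper79.LW
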