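import Mathlib
import Cfsg.Agent.Lib.Helper75.LW.Defs
import Cfsg.Agent.Lib.Helper79.LW.BrH

/-!
# S0746 (team project LW): package [CNTH] (orbit-stabiliser for subsets)
-/

set_option autoImplicit false

namespace Cfsg.Agent.Lib.Helper79.LW

open Cfsg.Agent.Lib.Helper75.LW

open scoped Pointwise

universe u

/-- [CNTH] -/
theorem pkgCntH : PkgCntH.{u} := by
  intro α _ _ G j s hs hH
  have htr : MulAction.IsPretransitive G (Set.powersetCard α j) := (pkgBrH G j).2 hH
  have h1 := MulAction.index_stabilizer_of_transitive G (Set.powersetCard.ofCard hs)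
  rw [Set.powersetCard.card, Nat.card_eq_fintype_card] at h1
  have h2 := Subgroup.card_mul_index (MulAction.stabilizer G (Set.powersetCard.ofCard hs))
  rw [h1] at h2
  have hmem : ∀ g : G, g ∈ MulAction.stabilizer G (Set.powersetCard.ofCard hs) ↔
      ∀ a, (g : Equiv.Perm α) a ∈ s ↔ a ∈ s := by
    intro g
    rw [MulAction.mem_stabilizer_iff]
    constructor
    · intro h a
      have h3 : g • s = s :=
        (Set.powersetCard.coe_smul (g := g) (s := Set.powersetCard.ofCard hs)).symm.trans
          (congrArg Subtype.val h)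
      conv_lhs => rw [← h3]
      exact Finset.smul_mem_smul_finset_iff g
    · intro h
      apply Subtype.ext
      refine (Set.powersetCard.coe_smul (g := g) (s := Set.powersetCard.ofCard hs)).trans ?_
      ext b
      rw [← Finset.inv_smul_mem_iff]
      have h4 := h (g⁻¹ • b)
      have h5 : (g : Equiv.Perm α) (g⁻¹ • b) = b := by
        show (g : Equiv.Perm α) ((g : Equiv.Perm α)⁻¹ b) = b
        simp
      rw [h5] at h4
      exact h4.symm
  have h3 : Nat.card (MulAction.stabilizer G (Set.powersetCard.ofCard hs))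
      = Nat.card (SS G s) := by
    apply Nat.card_congr
    exact ⟨fun x => ⟨x.1.1, ⟨x.1.2, (hmem x.1).1 x.2⟩⟩,
      fun y => ⟨⟨y.1, y.2.1⟩, (hmem _).2 y.2.2⟩, fun x => rfl, fun y => rfl⟩
  rw [h3] at h2
  rw [← h2, mul_comm]

end Cfsg.Agent.Lib.Helper79.LW
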