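import Mathlib
import Cfsg.Agent.Lib.Helper75.LW.Defs
import Cfsg.Agent.Lib.Helper79.LW.BrT

/-!
# S0746 (team project LW): package [CNTT] (orbit-stabiliser for ordered tuples)
-/

set_option autoImplicit false

namespace Cfsg.Agent.Lib.Helper79.LW

open Cfsg.Agent.Lib.Helper75.LW

universe u

/-- [CNTT] -/
theorem pkgCntT : PkgCntT.{u} := by
  intro α _ _ G j s hs hT
  have htr0 : MulAction.IsMultiplyPretransitive G α j := (pkgBrT G j).2 hT
  have htr : MulAction.IsPretransitive G (Fin j ↪ α) := htr0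
  obtain ⟨e, he⟩ : ∃ e : Fin j ↪ α, ∀ a, a ∈ s ↔ ∃ i, e i = a := by
    refine ⟨(s.equivFinOfCardEq hs).symm.toEmbedding.trans (Function.Embedding.subtype _),
      fun a => ?_⟩
    constructor
    · intro ha
      refine ⟨s.equivFinOfCardEq hs ⟨a, ha⟩, ?_⟩
      simp
    · rintro ⟨i, rfl⟩
      simp
  have h1 := @MulAction.index_stabilizer_of_transitive G (Fin j ↪ α) _ _ e htr
  rw [Nat.card_eq_fintype_card, Fintype.card_embedding_eq, Fintype.card_fin] at h1
  have h2 := Subgroup.card_mul_index (MulAction.stabilizer G e)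
  rw [h1] at h2
  have hmem : ∀ g : G, g ∈ MulAction.stabilizer G e ↔ ∀ a ∈ s, (g : Equiv.Perm α) a = a := by
    intro g
    rw [MulAction.mem_stabilizer_iff]
    constructor
    · intro h a ha
      obtain ⟨i, rfl⟩ := (he a).1 ha
      exact congrArg (fun f : Fin j ↪ α => f i) h
    · intro h
      ext i
      exact h (e i) ((he _).2 ⟨i, rfl⟩)
  have h3 : Nat.card (MulAction.stabilizer G e) = Nat.card (PS G s) := by
    apply Nat.card_congr
    exact ⟨fun x => ⟨x.1.1, ⟨x.1.2, (hmem x.1).1 x.2⟩⟩,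
      fun y => ⟨⟨y.1, y.2.1⟩, (hmem _).2 y.2.2⟩, fun x => rfl, fun y => rfl⟩
  rw [h3] at h2
  rw [← h2, mul_comm]

end Cfsg.Agent.Lib.Helper79.LW
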