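import Mathlib
import Cfsg.Agent.Lib.Helper75.LW.Defs
import Cfsg.Agent.Lib.Helper79.LW.BrT

/-!
# S0746 (team project LW): package [MONO]
-/

set_option autoImplicit false

namespace Cfsg.Agent.Lib.Helper79.LW

open Cfsg.Agent.Lib.Helper75.LW

universe u

/-- [MONO] -/
theorem pkgMono : PkgMono.{u} := by
  intro α _ _ G i j hij hj hT
  have hb : ∀ j, MulAction.IsMultiplyPretransitive G α j ↔ HT G j := fun j => pkgBrT G j
  have h1 : MulAction.IsMultiplyPretransitive G α j := (hb j).2 hT
  have h2 : MulAction.IsMultiplyPretransitive G α i :=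
    MulAction.isMultiplyPretransitive_of_le hij (by rw [Nat.card_eq_fintype_card]; exact hj)
  exact (hb i).1 h2

end Cfsg.Agent.Lib.Helper79.LW
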